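import Cfsg.Agent.Lib.SchurMult.TwoCollect

/-!
The collector certificate with one degree of freedom left: all tails are, up to a change of lifts,
multiples of the commutator of the lifts of two commuting normal forms.  Then the `2`-part of the
kernel of a stem extension is generated by that commutator.
-/

set_option autoImplicit false

namespace CfsgLib.SchurMult

open scoped commutatorElement

universe v

namespace Collector

variable (c : Collector)

/-- Every tail is a gauge change plus a multiple of `m0`, modulo the equations. -/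
def solvedOneOK (m0 : ℕ) (extra : List Bool) : Bool :=
  c.rels.all (fun r => r.1.all (fun i => decide (i < c.n)) && r.2.all fun i => decide (i < c.n)) &&
  c.eqs.all c.eqOK &&
    (List.range c.rels.length).all fun v =>
      2 ^ v ^^^ c.gaugeMask ((c.rels.getD v ([], [])).1 ++ (c.rels.getD v ([], [])).2) ^^^
          (bif extra.getD v false then m0 else 0) ==
        c.selMask c.eqs (c.comb.getD v 0) 0

end Collector

variable {G : Type v} [Group G]

/-- Sum of the masks of the two products of a commuting pair. -/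
def pairComm (c : Collector) (x y : ℕ) : ℕ := (c.mulNF x y).2 ^^^ (c.mulNF y x).2

/-- In a stem extension with kernel of exponent `2` the kernel is generated by the commutator of
lifts of the chosen pair. -/
theorem ker_le_zpowers_of_collector [Finite G] (c : Collector) (el conjEl : ℕ → G)
    (hT : c.tableOK = true) {x y : ℕ} (hx : x < 2 ^ c.n) (hy : y < 2 ^ c.n)
    (hxy : (c.mulNF x y).1 = (c.mulNF y x).1) {extra : List Bool}
    (hsolved : c.solvedOneOK (pairComm c x y) extra = true)
    (hrel : ∀ v < c.rels.length,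
      lprod el (c.rels.getD v ([], [])).1 = lprod el (c.rels.getD v ([], [])).2)
    (hconj : ∀ e ∈ c.eqs, ConjHolds c el conjEl e)
    (hcard : 2 ^ c.n ≤ Nat.card (Subgroup.closure (el '' Set.Iio c.n)))
    (hG : ∃ m, ¬ 2 ∣ m ∧ Nat.card G = 2 ^ c.n * m)
    {Δ : Type v} [Group Δ] [Finite Δ] {τ : Δ →* G} (hτ : Cfsg.IsStemExtension τ)
    (hsq : ∀ k ∈ τ.ker, k * k = 1) {X Y : Δ} (hX : τ X = nf el c.n x) (hY : τ Y = nf el c.n y)
    {z : Δ} (hzk : z ∈ τ.ker) : z ∈ Subgroup.zpowers ⁅X, Y⁆ := by
  set H : Subgroup G := Subgroup.closure (el '' Set.Iio c.n)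
  have hel : Tails c el fun _ => (1 : G) :=
    ⟨fun _ => mul_one 1, fun _ g => by simp, fun v hv => by rw [hrel v hv, mul_one]⟩
  have hnfH : ∀ x, nf el c.n x ∈ H := by
    intro x
    suffices ∀ k, k ≤ c.n → bprod el k x ∈ H from this _ le_rfl
    intro k
    induction k with
    | zero => intro _; exact one_mem H
    | succ k ih =>
      intro hk
      rw [bprod]
      cases x.testBit k
      · exact ih (by omega)
      · exact mul_mem (ih (by omega))
          (Subgroup.subset_closure ⟨k, Set.mem_Iio.2 (by omega), rfl⟩)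
  let F : Fin (2 ^ c.n) → H := fun x => ⟨nf el c.n x, hnfH x⟩
  have hsurj : Function.Surjective F := fun ⟨z, hz⟩ => by
    obtain ⟨x, hx, rfl⟩ := closure_subset_nf hel hT hz
    exact ⟨⟨x, hx⟩, rfl⟩
  have hle : Nat.card H ≤ 2 ^ c.n := by
    simpa using Nat.card_le_card_of_surjective F hsurj
  have hinj : Function.Injective F :=
    (hsurj.bijective_of_nat_card_le (by simpa using hcard)).1
  have hindex : ¬ 2 ∣ H.index := by
    obtain ⟨m, hm, hGm⟩ := hG
    have := H.card_mul_index
    rw [show Nat.card H = 2 ^ c.n from le_antisymm hle hcard, hGm] at this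
    rwa [Nat.eq_of_mul_eq_mul_left (by positivity) this]
  -- lifts and tails
  have hcen : ∀ k ∈ τ.ker, ∀ g : Δ, g * k = k * g := fun k hk g =>
    Subgroup.mem_center_iff.1 (hτ.2.1 hk) g
  choose s hs using hτ.1
  set l : ℕ → Δ := fun i => s (el i) with hl
  have hτl : (fun i => τ (l i)) = el := funext fun i => hs (el i)
  set t : ℕ → Δ := fun v => if v < c.rels.length then
    (lprod l (c.rels.getD v ([], [])).2)⁻¹ * lprod l (c.rels.getD v ([], [])).1 else 1 with ht
  have htker : ∀ v, t v ∈ τ.ker := by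
    intro v
    rw [ht, MonoidHom.mem_ker]
    by_cases hv : v < c.rels.length
    · simp only
      rw [if_pos hv, map_mul, map_inv, map_lprod, map_lprod, hτl, hrel v hv, inv_mul_cancel]
    · simp [hv]
  have hl_t : Tails c l t :=
    ⟨fun v => hsq _ (htker v), fun v => hcen _ (htker v), fun v hv => by simp [ht, hv]⟩
  have htvker : ∀ m, tval c t m ∈ τ.ker := fun m => bprod_mem htker _ _
  have hsolved' := hsolved
  simp only [Collector.solvedOneOK, Bool.and_eq_true, List.all_eq_true, List.mem_range, beq_iff_eq,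
    decide_eq_true_eq] at hsolved'
  obtain ⟨⟨hw, heqs⟩, hcomb⟩ := hsolved'
  have hwords : ∀ v < c.rels.length, (∀ i ∈ (c.rels.getD v ([], [])).1, i < c.n) ∧
      ∀ i ∈ (c.rels.getD v ([], [])).2, i < c.n := fun v hv => by
    rw [List.getD_eq_getElem _ _ hv]; exact hw _ (List.getElem_mem hv)
  have heq1 : ∀ e ∈ c.eqs, tval c t (c.eqMask e) = 1 := by
    intro e he
    cases e with
    | assoc pre v => exact hl_t.assoc_eq hT hwords (heqs _ he)
    | conj k m pairs =>
      refine hl_t.conj_eq hT (S := τ.ker) (fun k hk => ⟨hsq k hk, hcen k hk⟩) (g := s (conjEl k))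
        (fun q hq => ?_) (heqs _ he)
      have := hconj _ he q hq
      simp [MonoidHom.mem_ker, map_bprod, hτl, hs, nf, this]
  have hsel : ∀ (es : List TailEq) (b k : ℕ), (∀ e ∈ es, e ∈ c.eqs) →
      tval c t (c.selMask es b k) = 1 := by
    intro es b
    induction es with
    | nil => intro k _; exact bprod_zero t _
    | cons e es ih =>
      intro k hes
      rw [Collector.selMask]
      have := ih (k + 1) fun f hf => hes f (List.mem_cons_of_mem _ hf)
      cases b.testBit k
      · exact this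
      · rw [cond_true, hl_t.tval_xor, heq1 e (hes e (List.mem_cons_self ..)), this, one_mul]
  -- the value of the pair
  have hw0 : tval c t (pairComm c x y) = ⁅X, Y⁆ := by
    obtain ⟨-, e1⟩ := hl_t.mul_spec hT (y := y) hx
    obtain ⟨-, e2⟩ := hl_t.mul_spec hT (y := x) hy
    have hm : ∀ u, τ (nf l c.n u) = nf el c.n u := fun u => by rw [nf, map_bprod, hτl]
    rw [comm_eq_of_map_eq hτ.2.1 (a' := nf l c.n x) (b' := nf l c.n y) (by rw [hX, hm]) (by rw [hY, hm]),
      commutatorElement_def, show nf l c.n x * nf l c.n y * (nf l c.n x)⁻¹ * (nf l c.n y)⁻¹ =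
        nf l c.n x * nf l c.n y * (nf l c.n y * nf l c.n x)⁻¹ by group, e1, e2, hxy, pairComm,
      hl_t.tval_xor, mul_inv_rev, show (tval c t (c.mulNF y x).2)⁻¹ = tval c t (c.mulNF y x).2 from
        inv_eq_of_mul_eq_one_left (hl_t.tval_sq _)]
    set A := tval c t (c.mulNF x y).2
    set B := tval c t (c.mulNF y x).2
    set r := nf l c.n (c.mulNF y x).1
    calc A * B = A * B * r * r⁻¹ := by group
      _ = r * (A * B) * r⁻¹ := by rw [hcen (A * B) (mul_mem (htvker _) (htvker _)) r]
      _ = r * A * (B * r⁻¹) := by group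
  set W : Subgroup Δ := Subgroup.zpowers ⁅X, Y⁆
  have hW1 : ∀ b : Bool, tval c t (bif b then pairComm c x y else 0) ∈ W := by
    intro b
    cases b
    · rw [cond_false, show tval c t 0 = 1 from bprod_zero t _]; exact one_mem W
    · rw [cond_true, hw0]; exact Subgroup.mem_zpowers _
  -- the changed lifts satisfy the relations up to `W`
  set e : ℕ → Δ := fun i => tval c t (c.gauge.getD i 0) with he
  have heker : ∀ i, e i ∈ τ.ker := fun i => htvker _
  have hegauge : ∀ w, tval c t (c.gaugeMask w) = lprod e w := by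
    intro w
    induction w with
    | nil => exact bprod_zero t _
    | cons i w ih => rw [Collector.gaugeMask, hl_t.tval_xor, ih]; rfl
  set l' : ℕ → Δ := fun i => l i * e i with hl'
  have hτl' : (fun i => τ (l' i)) = el := funext fun i => by
    simp [hl', MonoidHom.mem_ker.1 (heker i), hl, hs]
  have hlmul : ∀ w, lprod l' w = lprod l w * lprod e w :=
    lprod_mul_central fun i => hcen _ (heker i)
  set t' : ℕ → Δ := fun v => if v < c.rels.length then
    tval c t (bif extra.getD v false then pairComm c x y else 0) else 1 with ht'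
  have ht'W : ∀ v, t' v ∈ W := fun v => by
    rw [ht']; by_cases hv : v < c.rels.length
    · simp only [if_pos hv]; exact hW1 _
    · simp [hv]
  have ht'ker : ∀ v, t' v ∈ τ.ker := fun v => by
    rw [ht']; by_cases hv : v < c.rels.length
    · simp only [if_pos hv]; exact htvker _
    · simp [hv]
  have hl'1 : Tails c l' t' := by
    refine ⟨fun v => hsq _ (ht'ker v), fun v => hcen _ (ht'ker v), fun v hv => ?_⟩
    have h1 := hsel c.eqs (c.comb.getD v 0) 0 fun _ h => h
    rw [← hcomb v hv, hl_t.tval_xor, hl_t.tval_xor,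
      show tval c t (2 ^ v) = t v from bprod_two_pow hv, hegauge, lprod_append] at h1
    have hER : lprod e (c.rels.getD v ([], [])).2 * lprod e (c.rels.getD v ([], [])).2 = 1 := by
      rw [← hegauge]; exact hl_t.tval_sq _
    have hM : t' v = tval c t (bif extra.getD v false then pairComm c x y else 0) := by
      simp [ht', hv]
    rw [← hM] at h1
    rw [hlmul, hlmul, hl_t.rel v hv, mul_assoc, mul_assoc]
    congr 1
    set EL := lprod e (c.rels.getD v ([], [])).1
    set ER := lprod e (c.rels.getD v ([], [])).2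
    have hcER : ∀ g, g * ER = ER * g := fun g => by
      rw [show ER = tval c t (c.gaugeMask (c.rels.getD v ([], [])).2) from (hegauge _).symm]
      exact hl_t.tval_central _ g
    calc t v * EL = t v * (EL * ER) * ER⁻¹ := by group
      _ = t' v * ER⁻¹ := by
        rw [eq_inv_of_mul_eq_one_left h1, inv_eq_of_mul_eq_one_left (hsq _ (ht'ker v))]
      _ = ER * t' v := by rw [inv_eq_of_mul_eq_one_left hER, hcER]
  -- the preimage of `H`
  by_cases hz1 : z = 1
  · rw [hz1]; exact one_mem W
  have hzc : z ∈ ⁅H.comap τ, H.comap τ⁆ := mem_commutator_of_pow_eq_one hτ Nat.prime_two H hindex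
    hzk (k := 1) (by rw [pow_one, pow_two, hsq z hzk])
  set K : Subgroup Δ := Subgroup.closure (l' '' Set.Iio c.n)
  have himg : H = Subgroup.closure (τ '' (l' '' Set.Iio c.n)) := by
    show Subgroup.closure (el '' _) = _
    rw [Set.image_image, hτl']
  rw [himg] at hzc
  have hzK : z ∈ K := commutator_comap_closure_le hτ.2.1 (l' '' Set.Iio c.n) K
    (fun a ha => Subgroup.le_normalizer (Subgroup.subset_closure ha))
    (fun a ha b hb => by
      have ha' : a ∈ K := Subgroup.subset_closure ha
      have hb' : b ∈ K := Subgroup.subset_closure hb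
      rw [commutatorElement_def]
      exact mul_mem (mul_mem (mul_mem ha' hb') (inv_mem ha')) (inv_mem hb')) hzc
  obtain ⟨u, m, hu, rfl⟩ : ∃ u m, u < 2 ^ c.n ∧ z = nf l' c.n u * tval c t' m := by
    rw [← Subgroup.mem_toSubmonoid, Subgroup.closure_toSubmonoid_of_finite] at hzK
    clear hzk hz1 hzc
    induction hzK using Submonoid.closure_induction_right with
    | one => exact ⟨0, 0, by positivity, by simp [nf, tval, bprod_zero]⟩
    | mul_right p _ g hg ih =>
      obtain ⟨u, m, hu, rfl⟩ := ih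
      obtain ⟨i, hi, rfl⟩ := hg
      obtain ⟨hr, he'⟩ := hl'1.step_spec hT (c.n - i) i (by rw [Set.mem_Iio] at hi; omega) hi u hu
      exact ⟨_, m ^^^ (c.step u i).2, hr, by
        rw [mul_assoc, ← hl'1.tval_central, ← mul_assoc, he', mul_assoc, hl'1.tval_xor,
          hl'1.tval_central]⟩
  have htW : tval c t' m ∈ W := bprod_mem ht'W _ _
  have hzk' := hzk
  rw [MonoidHom.mem_ker, map_mul, map_bprod, hτl',
    show τ (tval c t' m) = 1 from bprod_mem (S := τ.ker) ht'ker _ _, mul_one] at hzk'
  have : F ⟨u, hu⟩ = F ⟨0, by positivity⟩ := Subtype.ext (by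
    show nf el c.n u = nf el c.n 0
    rw [show nf el c.n u = 1 from hzk']; exact (bprod_zero el _).symm)
  have hu0 : u = 0 := congrArg Fin.val (hinj this)
  subst hu0
  rw [show nf l' c.n 0 = 1 from bprod_zero l' _, one_mul]
  exact htW

/-- The `2`-elements of the kernel of a stem extension lie in the group generated by the commutator
of lifts of a pair with one member an involution. -/
theorem two_elements_le_zpowers [Finite G] (c : Collector) (el conjEl : ℕ → G)
    (hT : c.tableOK = true) {x y : ℕ} (hx : x < 2 ^ c.n) (hy : y < 2 ^ c.n)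
    (hxy : (c.mulNF x y).1 = (c.mulNF y x).1) (hxx : (c.mulNF x x).1 = 0) {extra : List Bool}
    (hsolved : c.solvedOneOK (pairComm c x y) extra = true)
    (hrel : ∀ v < c.rels.length,
      lprod el (c.rels.getD v ([], [])).1 = lprod el (c.rels.getD v ([], [])).2)
    (hconj : ∀ e ∈ c.eqs, ConjHolds c el conjEl e)
    (hcard : 2 ^ c.n ≤ Nat.card (Subgroup.closure (el '' Set.Iio c.n)))
    (hG : ∃ m, ¬ 2 ∣ m ∧ Nat.card G = 2 ^ c.n * m)
    {Γ : Type v} [Group Γ] [Finite Γ] {σ : Γ →* G} (hσ : Cfsg.IsStemExtension σ) :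
    ∃ w : Γ, w ^ 2 = 1 ∧ ∀ z ∈ σ.ker, ∀ k : ℕ, z ^ 2 ^ k = 1 → z ∈ Subgroup.zpowers w := by
  have hel : Tails c el fun _ => (1 : G) :=
    ⟨fun _ => mul_one 1, fun _ g => by simp, fun v hv => by rw [hrel v hv, mul_one]⟩
  obtain ⟨X, hX⟩ := hσ.1 (nf el c.n x)
  obtain ⟨Y, hY⟩ := hσ.1 (nf el c.n y)
  have hcomm : Commute (σ X) (σ Y) := by
    rw [hX, hY]
    show _ * _ = _ * _
    rw [(hel.mul_spec hT (y := y) hx).2, (hel.mul_spec hT (y := x) hy).2, hxy, tval, tval, bprod_one,
      bprod_one]
  have hX2 : σ X ^ 2 = 1 := by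
    rw [hX, pow_two, (hel.mul_spec hT (y := x) hx).2, hxx, tval, bprod_one, mul_one]
    exact bprod_zero el _
  set w := ⁅X, Y⁆ with hw
  have hw2 : w ^ 2 = 1 := by
    rw [hw, ← comm_pow_left hσ.2.1 hcomm, commutatorElement_eq_one_iff_mul_comm]
    exact (ker_comm hσ.2.1 (show X ^ 2 ∈ σ.ker by rw [MonoidHom.mem_ker, map_pow, hX2]) Y).symm
  refine ⟨w, hw2, ?_⟩
  -- squares of kernel elements
  have hkc : ∀ a ∈ σ.ker, ∀ g : Γ, g * a = a * g := fun a ha g =>
    Subgroup.mem_center_iff.1 (hσ.2.1 ha) g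
  let S : Subgroup Γ :=
    { carrier := {p | ∃ a ∈ σ.ker, p = a ^ 2}
      one_mem' := ⟨1, one_mem _, (one_pow 2).symm⟩
      mul_mem' := by
        rintro _ _ ⟨a, ha, rfl⟩ ⟨b, hb, rfl⟩
        exact ⟨a * b, mul_mem ha hb, ((show Commute a b from hkc b hb a).mul_pow 2).symm⟩
      inv_mem' := by
        rintro _ ⟨a, ha, rfl⟩
        exact ⟨a⁻¹, inv_mem ha, (inv_pow a 2).symm⟩ }
  have hSle : S ≤ σ.ker := by rintro _ ⟨a, ha, rfl⟩; exact pow_mem ha 2
  haveI : S.Normal := ⟨fun n hn g => by
    rw [hkc n (hSle hn) g, mul_inv_cancel_right]; exact hn⟩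
  set τ := QuotientGroup.lift S σ hSle
  have hτker : τ.ker = σ.ker.map (QuotientGroup.mk' S) := QuotientGroup.ker_lift S σ hSle
  have hτ : Cfsg.IsStemExtension τ := by
    refine ⟨fun g => ?_, ?_, ?_⟩
    · obtain ⟨p, rfl⟩ := hσ.1 g; exact ⟨QuotientGroup.mk p, rfl⟩
    · rw [hτker]
      rintro _ ⟨a, ha, rfl⟩
      rw [Subgroup.mem_center_iff]
      intro q
      obtain ⟨p, rfl⟩ := QuotientGroup.mk'_surjective S q
      rw [← map_mul, ← map_mul, hkc a ha p]
    · rw [hτker]
      refine le_trans (Subgroup.map_mono hσ.2.2) ?_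
      rw [commutator_def, Subgroup.map_commutator, commutator_def]
      exact Subgroup.commutator_mono le_top le_top
  have hsq : ∀ k ∈ τ.ker, k * k = 1 := by
    rw [hτker]
    rintro _ ⟨a, ha, rfl⟩
    rw [← map_mul, ← pow_two, QuotientGroup.mk'_apply, QuotientGroup.eq_one_iff]
    exact ⟨a, ha, rfl⟩
  have step : ∀ a ∈ σ.ker, ∃ p ∈ Subgroup.zpowers w, ∃ b ∈ σ.ker, a = p * b ^ 2 := by
    intro a ha
    have hmem := ker_le_zpowers_of_collector c el conjEl hT hx hy hxy hsolved hrel hconj hcard hG hτ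
      hsq (X := QuotientGroup.mk' S X) (Y := QuotientGroup.mk' S Y) hX hY
      (z := QuotientGroup.mk' S a) (by rw [hτker]; exact Subgroup.mem_map_of_mem _ ha)
    rw [← map_commutatorElement, ← hw, ← MonoidHom.map_zpowers] at hmem
    obtain ⟨p, hp, hpa⟩ := hmem
    rw [QuotientGroup.mk'_apply, QuotientGroup.mk'_apply, QuotientGroup.eq] at hpa
    obtain ⟨b, hb, hb2⟩ := hpa
    exact ⟨p, hp, b, hb, by rw [← hb2, mul_inv_cancel_left]⟩
  have iter : ∀ k : ℕ, ∀ a ∈ σ.ker, ∃ p ∈ Subgroup.zpowers w, ∃ b ∈ σ.ker, a = p * b ^ 2 ^ k := by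
    intro k
    induction k with
    | zero => intro a ha; exact ⟨1, one_mem _, a, ha, by simp⟩
    | succ k ih =>
      intro a ha
      obtain ⟨p, hp, b, hb, rfl⟩ := ih a ha
      obtain ⟨q, hq, b', hb', rfl⟩ := step b hb
      refine ⟨p * q ^ 2 ^ k, mul_mem hp (pow_mem hq _), b', hb', ?_⟩
      rw [(show Commute q (b' ^ 2) from hkc _ (pow_mem hb' 2) q).mul_pow, ← pow_mul, ← pow_succ',
        mul_assoc]
  intro z hz k hk
  obtain ⟨a, m, hm, hKm⟩ := Nat.exists_eq_two_pow_mul_odd (n := Nat.card σ.ker) Nat.card_pos.ne'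
  obtain ⟨p, hp, b, hb, rfl⟩ := iter a z hz
  have hbK : (b ^ 2 ^ a) ^ m = 1 := by
    rw [← pow_mul, ← hKm]
    have := pow_card_eq_one' (x := (⟨b, hb⟩ : σ.ker))
    exact congrArg Subtype.val this
  have hzm : (p * b ^ 2 ^ a) ^ m ∈ Subgroup.zpowers w := by
    rw [(show Commute p (b ^ 2 ^ a) from hkc _ (pow_mem hb _) p).mul_pow, hbK, mul_one]
    exact pow_mem hp _
  have hcop : m.Coprime (orderOf (p * b ^ 2 ^ a)) := by
    refine Nat.Coprime.of_dvd_right (orderOf_dvd_of_pow_eq_one hk) (Nat.Coprime.pow_right k ?_)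
    exact (Nat.prime_two.coprime_iff_not_dvd.2 hm.not_two_dvd_nat).symm
  obtain ⟨j, hj⟩ := exists_pow_eq_self_of_coprime hcop
  rw [← hj]
  exact pow_mem hzm _

end CfsgLib.SchurMult
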