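import Mathlib.LinearAlgebra.Matrix.Rank

/-!
Rank of a matrix given as a product through `Fin l` with an identity submatrix.
-/

set_option autoImplicit false

namespace CfsgLib.SchurMult

open Matrix

universe u

/-- A matrix factoring through `Fin l` that has the identity as an `l × l` submatrix has rank `l`. -/
theorem rank_eq_of_factor {F : Type u} [Field F] {n : Type} [Fintype n] {l : ℕ} (M : Matrix n n F)
    (A : Matrix n (Fin l) F) (B : Matrix (Fin l) n F) (h : M = A * B) (r c : Fin l → n)
    (hsub : M.submatrix r c = 1) : M.rank = l := by
  refine le_antisymm ?_ ?_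
  · rw [h]
    exact ((rank_mul_le_left A B).trans (rank_le_card_width A)).trans_eq (Fintype.card_fin l)
  · have h2 := rank_submatrix_le M r c
    rwa [hsub, rank_one, Fintype.card_fin] at h2

end CfsgLib.SchurMult
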